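import Mathlib
import Cfsg.Prelude
import Cfsg.Agent.Lib.Helper31.FpfNilp
import Cfsg.Agent.Lib.Helper75.FrobTheory

set_option autoImplicit false

namespace Cfsg.Agent.Lib.Helper37.CTI

/-- internal direct product of two commuting subgroups of coprime order -/
theorem exists_prod_equiv {G : Type*} [Group G] [Finite G] (C Q E : Subgroup G) (hCQ : C ⊔ Q = E)
    (hcomm : ∀ a ∈ C, ∀ b ∈ Q, a * b = b * a) (hco : (Nat.card C).Coprime (Nat.card Q)) :
    Nonempty (E ≃* C × Q) := by
  have comm : ∀ (m : C) (n : Q), Commute (C.subtype m) (Q.subtype n) :=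
    fun m n => hcomm m m.2 n n.2
  let φ : C × Q →* G := MonoidHom.noncommCoprod C.subtype Q.subtype comm
  have hinj : Function.Injective φ := by
    rw [MonoidHom.noncommCoprod_injective]
    refine ⟨C.subtype_injective, Q.subtype_injective, ?_⟩
    rw [Subgroup.range_subtype, Subgroup.range_subtype]
    exact Subgroup.disjoint_of_coprime_natCard hco
  have hrange : φ.range = E := by
    rw [MonoidHom.noncommCoprod_range, Subgroup.range_subtype, Subgroup.range_subtype, hCQ]
  exact ⟨((MonoidHom.ofInjective hinj).trans (MulEquiv.subgroupCongr hrange)).symm⟩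

/-- In a generalized quaternion group of order at least 16 the centralizer of `xa 0` is not TI. -/
theorem quat_facts (N : ℕ) (hN : 4 ≤ N) :
    (QuaternionGroup.xa 0 * QuaternionGroup.xa 0 : QuaternionGroup N) ≠ 1 ∧
    (QuaternionGroup.a 1 * (QuaternionGroup.xa 0 * QuaternionGroup.xa 0) * (QuaternionGroup.a 1)⁻¹
      : QuaternionGroup N) = QuaternionGroup.xa 0 * QuaternionGroup.xa 0 ∧
    ((QuaternionGroup.a 1 * QuaternionGroup.xa 0 * (QuaternionGroup.a 1)⁻¹) * QuaternionGroup.xa 0
      : QuaternionGroup N) ≠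
      QuaternionGroup.xa 0 * (QuaternionGroup.a 1 * QuaternionGroup.xa 0 * (QuaternionGroup.a 1)⁻¹) := by
  have hinv : ((QuaternionGroup.a 1)⁻¹ : QuaternionGroup N) = QuaternionGroup.a (-1) := rfl
  have hne : ∀ k : ℕ, 0 < k → k < 2 * N → ((k : ℕ) : ZMod (2 * N)) ≠ 0 := by
    intro k hk hk2 h0
    rw [ZMod.natCast_eq_zero_iff] at h0
    exact absurd (Nat.le_of_dvd hk h0) (by omega)
  refine ⟨?_, ?_, ?_⟩
  · rw [QuaternionGroup.xa_mul_xa, QuaternionGroup.one_def]
    intro h
    have h1 := QuaternionGroup.a.inj h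
    apply hne N (by omega) (by omega)
    simpa using h1
  · rw [hinv, QuaternionGroup.xa_mul_xa, QuaternionGroup.a_mul_a, QuaternionGroup.a_mul_a]
    congr 1
    ring
  · rw [hinv, QuaternionGroup.a_mul_xa, QuaternionGroup.xa_mul_a, QuaternionGroup.xa_mul_xa,
      QuaternionGroup.xa_mul_xa]
    intro h
    have h1 := QuaternionGroup.a.inj h
    apply hne 4 (by omega) (by omega)
    have h2 : ((4 : ℕ) : ZMod (2 * N)) = ((N : ZMod (2 * N)) + 0 - (0 - 1 + -1)) -
        ((N : ZMod (2 * N)) + (0 - 1 + -1) - 0) := by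
      push_cast; ring
    rw [h2, h1, sub_self]

/-- A nilpotent Frobenius complement in a group all of whose element centralizers are TI is cyclic
or `C_m × Q_8`. -/
theorem nfc {G : Type*} [Group G] [Finite G]
    (hTI : ∀ x : G, Cfsg.IsTISubset (Subgroup.centralizer ({x} : Set G) : Set G))
    (E : Subgroup G) (hE : Cfsg.IsFrobeniusComplement E) (hnil : Group.IsNilpotent E) :
    IsCyclic E ∨ ∃ m : ℕ, Odd m ∧ Nonempty (E ≃* Multiplicative (ZMod m) × QuaternionGroup 2) := by
  obtain ⟨K, -, hKn, -, hK1, -, hfpf⟩ := Cfsg.Agent.Lib.Helper75.frobenius_kernel_data E hE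
  have hEK : E ≤ Subgroup.normalizer (K : Set G) := by
    rw [Subgroup.normalizer_eq_top]; exact le_top
  have hfpf' : ∀ e ∈ E, e ≠ 1 → K ⊓ Subgroup.centralizer {e} = ⊥ := by
    intro e he he1
    rw [eq_bot_iff]
    intro k hk'
    obtain ⟨hk, hkc⟩ := Subgroup.mem_inf.1 hk'
    rw [Subgroup.mem_centralizer_singleton_iff] at hkc
    exact Subgroup.mem_bot.2 (hfpf e he he1 k hk hkc.symm)
  rcases Cfsg.Agent.Lib.Helper31.fpf_nilpotent_structure E K hEK hK1 hfpf' hnil with
    h | ⟨C, Q, hCQ, hcomm, hCc, hCodd, n, ⟨f⟩⟩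
  · exact Or.inl h
  have hNZ : NeZero (2 ^ n) := ⟨by positivity⟩
  have hQcard : Nat.card Q = 4 * 2 ^ n := by
    rw [Nat.card_congr f.toEquiv, Nat.card_eq_fintype_card, QuaternionGroup.card]
  have hco : (Nat.card C).Coprime (Nat.card Q) := by
    rw [hQcard, show 4 * 2 ^ n = 2 ^ (n + 2) by ring]
    exact Nat.Coprime.pow_right _ (Nat.coprime_two_right.2 hCodd)
  obtain ⟨e⟩ := exists_prod_equiv C Q E hCQ hcomm hco
  rcases Nat.lt_or_ge n 2 with hn | hn
  · interval_cases n
    · left
      have hQc : IsCyclic Q := by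
        have := QuaternionGroup.quaternionGroup_one_isCyclic
        exact isCyclic_of_surjective f.symm f.symm.surjective
      have : IsCyclic (C × Q) := Group.isCyclic_prod_iff.2 ⟨hCc, hQc, hco⟩
      exact isCyclic_of_surjective e.symm e.symm.surjective
    · right
      exact ⟨Nat.card C, hCodd, ⟨e.trans (MulEquiv.prodCongr (zmodCyclicMulEquiv hCc).symm f)⟩⟩
  · exfalso
    have hN : 4 ≤ 2 ^ n := by
      calc 4 = 2 ^ 2 := by norm_num
        _ ≤ 2 ^ n := Nat.pow_le_pow_right (by norm_num) hn
    obtain ⟨h1, h2, h3⟩ := quat_facts (2 ^ n) hN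
    set y : Q := f.symm (QuaternionGroup.xa 0) with hy
    set b : Q := f.symm (QuaternionGroup.a 1) with hb
    have h1' : y * y ≠ 1 := by
      intro h
      apply h1
      have := congrArg f h
      simpa [hy] using this
    have h2' : b * (y * y) * b⁻¹ = y * y := by
      apply f.injective
      simpa [hy, hb] using h2
    have h3' : (b * y * b⁻¹) * y ≠ y * (b * y * b⁻¹) := by
      intro h
      apply h3
      have := congrArg f h
      simpa [hy, hb] using this
    have hbN : (b : G) ∉ Subgroup.normalizer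
        ((Subgroup.centralizer ({(y : G)} : Set G) : Subgroup G) : Set G) := by
      intro hmem
      rw [Subgroup.mem_normalizer_iff] at hmem
      have h4 : (y : G) ∈ Subgroup.centralizer ({(y : G)} : Set G) := by
        rw [Subgroup.mem_centralizer_singleton_iff]
      have h5 := (hmem _).1 h4
      rw [Subgroup.mem_centralizer_singleton_iff] at h5
      apply h3'
      apply Subtype.ext
      simpa using h5
    have h6 := hTI (y : G) (b : G) hbN ((y : G) * y) (by
      rw [SetLike.mem_coe, Subgroup.mem_centralizer_singleton_iff, mul_assoc]) (by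
      have h7 : (b : G) * ((y : G) * y) * (b : G)⁻¹ = (y : G) * y := by
        have := congrArg Subtype.val h2'
        simpa using this
      rw [h7, SetLike.mem_coe, Subgroup.mem_centralizer_singleton_iff, mul_assoc])
    apply h1'
    apply Subtype.ext
    simpa using h6

end Cfsg.Agent.Lib.Helper37.CTI
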